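import Mathlib.AlgebraicGeometry.Noetherian
import Mathlib.AlgebraicGeometry.Morphisms.ClosedImmersion
import Mathlib.RingTheory.Noetherian.OfPrime

/-!
# Locally Noetherian thickenings

`isNoetherianRing_of_le_nilradical`: a finitely generated ideal `I` contained in the nilradical with Noetherian quotient
forces the ring to be Noetherian.

`isLocallyNoetherian_of_closedImmersion`: for a surjective closed immersion `i : X ⟶ Y` with `X` locally Noetherian whose
kernel ideal is finitely generated around every point of `Y`, the scheme `Y` is locally Noetherian.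
-/

set_option autoImplicit false
universe u

open CategoryTheory AlgebraicGeometry

namespace Groth.Agent.Fcompl.H548.ThickNoeth

/-- A ring with a finitely generated ideal contained in the nilradical and Noetherian quotient is Noetherian. -/
lemma isNoetherianRing_of_le_nilradical {A : Type*} [CommRing A] (I : Ideal A) (hI : I.FG)
    (hn : I ≤ nilradical A) (hN : IsNoetherianRing (A ⧸ I)) : IsNoetherianRing A := by
  refine IsNoetherianRing.of_prime fun P hP => ?_
  have hIP : I ≤ P := hn.trans (nilradical_le_prime P)
  have hNA : IsNoetherian A (A ⧸ I) := by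
    refine ⟨fun N => ?_⟩
    have h1 : Function.Surjective (algebraMap A (A ⧸ I)) := Ideal.Quotient.mk_surjective
    let N' : Submodule (A ⧸ I) (A ⧸ I) :=
      { carrier := N
        add_mem' := N.add_mem
        zero_mem' := N.zero_mem
        smul_mem' := fun c x hx => by
          obtain ⟨a, rfl⟩ := h1 c
          rw [algebraMap_smul]
          exact N.smul_mem a hx }
    have h2 : N'.FG := IsNoetherian.noetherian N'
    have h3 : N = N'.restrictScalars A := rfl
    rw [h3]
    exact h2.restrictScalars_of_surjective h1
  refine Submodule.fg_of_fg_map_of_fg_inf_ker I.mkQ (IsNoetherian.noetherian _) ?_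
  rw [Submodule.ker_mkQ, inf_eq_right.mpr hIP]
  exact hI

/-- A surjective closed immersion from a locally Noetherian scheme whose kernel ideal is locally of finite type has a
locally Noetherian target. -/
lemma isLocallyNoetherian_of_closedImmersion {X Y : Scheme.{u}} (i : X ⟶ Y) [IsClosedImmersion i]
    (hs : Function.Surjective i) [IsLocallyNoetherian X]
    (hft : ∀ y : Y, ∃ V : Y.affineOpens, y ∈ V.1 ∧ (i.ker.ideal V).FG) : IsLocallyNoetherian Y := by
  choose V hyV hV using hft
  refine isLocallyNoetherian_of_affine_cover (S := V) ?_ fun y => ?_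
  · exact top_le_iff.mp fun y _ ↦ TopologicalSpace.Opens.mem_iSup.mpr ⟨y, hyV y⟩
  · have h1 : IsAffineOpen (i ⁻¹ᵁ (V y).1) := (V y).2.preimage i
    have h2 : IsNoetherianRing Γ(X, i ⁻¹ᵁ (V y).1) :=
      IsLocallyNoetherian.component_noetherian ⟨_, h1⟩
    have h3 : i.ker.ideal (V y) = RingHom.ker (i.app (V y).1).hom := i.ker_apply (V y)
    refine isNoetherianRing_of_le_nilradical (i.ker.ideal (V y)) (hV y) (fun a ha => ?_) ?_
    · rw [h3, RingHom.mem_ker] at ha
      rw [mem_nilradical, Scheme.isNilpotent_iff_basicOpen_eq_bot_of_isCompact (V y).2.isCompact]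
      rw [← TopologicalSpace.Opens.coe_eq_empty, Set.eq_empty_iff_forall_notMem]
      intro z hz
      obtain ⟨x, rfl⟩ := hs z
      have h4 : x ∈ i ⁻¹ᵁ (Y.basicOpen a) := hz
      rw [Scheme.preimage_basicOpen] at h4
      have h5 : X.basicOpen ((i.app (V y).1).hom a) = ⊥ := by
        rw [ha]; exact Scheme.basicOpen_zero _ _
      have h6 : x ∈ (⊥ : X.Opens) := h5 ▸ h4
      exact h6
    · rw [h3]
      have h7 := (RingHom.ker (i.app (V y).1).hom)
      exact isNoetherianRing_of_ringEquiv _ (RingHom.quotientKerEquivOfSurjective
        (f := (i.app (V y).1).hom) (i.app_surjective _ (V y).2)).symm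

end Groth.Agent.Fcompl.H548.ThickNoeth
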